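import Cfsg.Agent.Lib.JankoThree.Centralizer

/-! # The normal subgroup of order 32 is extraspecial of minus type -/

set_option autoImplicit false
set_option maxRecDepth 100000

namespace Cfsg.Agent.Lib.JankoThree

open Cfsg.Spor

variable {F : Type*} [Field F] [Fintype F] {ω : F}

theorem Setup.index_of (h : Setup ω) {P : Type*} [Group P] (e : P ≃* h.subR) (x : P) :
    ∃ i < 32, h.jW (rWord i) = (e x : J3 F ω) := h.mem_subR.1 (e x).2

theorem Setup.isExtraspecial_R (h : Setup ω) {P : Type*} [Group P] (e : P ≃* h.subR) :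
    Cfsg.IsExtraspecial 2 P := by
  haveI : Fact (Nat.Prime 2) := ⟨Nat.prime_two⟩
  haveI : Finite P := Finite.of_equiv _ e.symm.toEquiv
  have hcard : Nat.card P = 32 := (Nat.card_congr e.toEquiv).trans h.card_subR
  have hP : IsPGroup 2 P := IsPGroup.of_card (n := 5) hcard
  have hinj : ∀ {a b : P}, (e a : J3 F ω) = e b → a = b := fun h' => e.injective (Subtype.ext h')
  have hzmem : h.jz ∈ h.subR := h.rWord_z ▸ h.mem_subR.2 ⟨zIdx, by decide, rfl⟩
  set z : P := e.symm ⟨h.jz, hzmem⟩ with hz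
  have hez : (e z : J3 F ω) = h.jz := by rw [hz, e.apply_symm_apply]
  have hz1 : z ≠ 1 := fun e1 => h.jz_ne_one (by rw [← hez, e1, map_one]; rfl)
  have hzcen : h.subR ≤ Subgroup.centralizer ({h.jz} : Set (J3 F ω)) := by
    rw [Setup.subR, Subgroup.closure_le]
    rintro _ ⟨a, ha, rfl⟩
    obtain ⟨-, -, hz1', -, -⟩ := z_chk
    simp only [List.all_eq_true, List.mem_range] at hz1'
    rw [SetLike.mem_coe, Subgroup.mem_centralizer_singleton_iff, Setup.gR, Setup.jz, ← h.jW_append, ← h.jW_append]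
    exact (h.jW_eq (okW_append ok_words.2.2.2.2 (ok_words.1 a ha))
      (okW_append (ok_words.1 a ha) ok_words.2.2.2.2) (hz1' a ha)).symm
  have hmem : ∀ x, x ∈ Subgroup.center P ↔ x = 1 ∨ x = z := by
    intro x
    constructor
    · intro hx
      rcases h.center_R (e x).2 (fun y hy => by
        have := congrArg (fun w : P => (e w : J3 F ω)) (Subgroup.mem_center_iff.1 hx (e.symm ⟨y, hy⟩))
        simpa using this.symm) with h1 | h1
      · exact Or.inl (hinj (by rw [h1, map_one]; rfl))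
      · exact Or.inr (hinj (by rw [h1, hez]))
    · rintro (rfl | rfl)
      · exact one_mem _
      · rw [Subgroup.mem_center_iff]
        intro g
        refine hinj ?_
        simp only [map_mul, Subgroup.coe_mul, hez]
        exact Subgroup.mem_centralizer_singleton_iff.1 (hzcen (e g).2)
  have hcl : commutator P ≤ Subgroup.center P := by
    rw [commutator_def, Subgroup.commutator_le]
    intro a _ b _
    rw [hmem]
    rcases h.comm_R (e a).2 (e b).2 with h1 | h1
    · exact Or.inl (hinj (by simpa [commutatorElement_def] using h1))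
    · exact Or.inr (hinj (by rw [hez]; simpa [commutatorElement_def] using h1))
  have hzcomm : z ∈ commutator P := by
    obtain ⟨b, hb, hne⟩ : ∃ b < 4, rMul (tbl rTab 0 0) (tbl rTab b 0) ≠ rMul (tbl rTab b 0) (tbl rTab 0 0) := by
      rcases r_noncomm with h1 | h1
      · exact ⟨2, by norm_num, fun e' => by rw [e'] at h1; simp at h1⟩
      · exact ⟨1, by norm_num, fun e' => by rw [e'] at h1; simp at h1⟩
    have hlt : ∀ a < 4, tbl rTab a 0 < 32 := fun a ha => (h.tabR.idx'.2.2.1 0 (by norm_num)).2 a ha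
    set x : P := e.symm ⟨_, h.mem_subR.2 ⟨_, hlt 0 (by norm_num), rfl⟩⟩ with hx
    set y : P := e.symm ⟨_, h.mem_subR.2 ⟨_, hlt b hb, rfl⟩⟩ with hy
    have h' := Subgroup.commutator_mem_commutator (Subgroup.mem_top x) (Subgroup.mem_top y)
    rw [← commutator_def] at h'
    rcases (hmem _).1 (hcl h') with h1 | h1
    · exfalso
      rw [commutatorElement_eq_one_iff_mul_comm] at h1
      have h2 := congrArg (fun w : P => (e w : J3 F ω)) h1
      simp only [hx, hy, map_mul, Subgroup.coe_mul, MulEquiv.apply_symm_apply] at h2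
      exact hne ((h.eq_iff_rMul (hlt 0 (by norm_num)) (hlt b hb) (hlt b hb) (hlt 0 (by norm_num))).1 h2)
    · exact h1 ▸ h'
  have hce : commutator P = Subgroup.center P := le_antisymm hcl fun x hx => by
    rcases (hmem x).1 hx with rfl | rfl
    · exact one_mem _
    · exact hzcomm
  refine ⟨⟨hP, le_antisymm ?_ ?_, hce⟩, ?_⟩
  · refine Lib.PGroupFrattini.frattini_le Nat.prime_two _ hcl fun x => ?_
    obtain ⟨i, hi, hix⟩ := h.index_of e x
    rw [hmem]
    have := r_sq
    simp only [List.all_eq_true, List.mem_range, Bool.or_eq_true, Nat.beq_eq] at this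
    have h2 : (e (x ^ 2) : J3 F ω) = h.jW (rWord (rMul i i)) := by
      rw [(h.mulR hi hi).2, hix, map_pow, pow_two]; rfl
    rcases this i hi with h1 | h1
    · exact Or.inl (hinj (by rw [h2, h1, h.rWord_zero, map_one]; rfl))
    · exact Or.inr (hinj (by rw [h2, h1, h.rWord_z, hez]))
  · rw [← hce]; exact Lib.PGroupFrattini.commutator_le_frattini hP
  · rw [← Nat.card_eq_two_iff.2 ⟨⟨1, one_mem _⟩, ⟨z, (hmem z).2 (Or.inr rfl)⟩,
      fun h' => hz1 (congrArg Subtype.val h').symm, Set.eq_univ_of_forall fun x => by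
        rcases (hmem x.1).1 x.2 with h' | h'
        · exact Or.inl (Subtype.ext h')
        · exact Or.inr (Subtype.ext h')⟩]

/-- No elementary abelian subgroup of order 8. -/
theorem Setup.elementary_le (h : Setup ω) {P : Type*} [Group P] (e : P ≃* h.subR) (E : Subgroup P)
    (hE : Cfsg.IsElementaryAbelian 2 E) : Nat.card E ≤ 2 ^ 2 := by
  classical
  haveI : Finite P := Finite.of_equiv _ e.symm.toEquiv
  haveI := Fintype.ofFinite E
  rw [Nat.card_eq_fintype_card]
  by_contra hlt
  push Not at hlt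
  obtain ⟨hcomm, hsq⟩ := hE
  obtain ⟨a, ha⟩ := Fintype.exists_ne_of_one_lt_card (show 1 < Fintype.card E by omega) 1
  obtain ⟨b, hb1, hb⟩ : ∃ b : E, b ≠ 1 ∧ b ≠ a := by
    obtain ⟨b, -, hb⟩ := Finset.exists_mem_notMem_of_card_lt_card (s := ({1, a} : Finset E)) (t := Finset.univ)
      (by rw [Finset.card_univ]; exact lt_of_le_of_lt Finset.card_le_two (by omega))
    simp only [Finset.mem_insert, Finset.mem_singleton, not_or] at hb
    exact ⟨b, hb.1, hb.2⟩
  obtain ⟨c, -, hc⟩ := Finset.exists_mem_notMem_of_card_lt_card (s := ({1, a, b, a * b} : Finset E))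
    (t := Finset.univ) (by rw [Finset.card_univ]; exact lt_of_le_of_lt Finset.card_le_four (by omega))
  simp only [Finset.mem_insert, Finset.mem_singleton, not_or] at hc
  choose ix hix hval using fun x : E => h.index_of e x.1
  have hinj : ∀ x y : E, ix x = ix y → x = y := fun x y e' => Subtype.ext (e.injective (Subtype.ext (by
    rw [← hval x, ← hval y, e'])))
  have hmul : ∀ x y : E, ix (x * y) = rMul (ix x) (ix y) := fun x y =>
    h.injR (hix _) (h.mulR (hix x) (hix y)).1 (by
      rw [(h.mulR (hix x) (hix y)).2, hval, hval, hval, Subgroup.coe_mul, map_mul]; rfl)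
  have h0 : ix 1 = 0 := h.injR (hix 1) (by norm_num) (by rw [hval, h.rWord_zero, Subgroup.coe_one, map_one]; rfl)
  have hne0 : ∀ x : E, x ≠ 1 → ix x ≠ 0 := fun x hx e' => hx (hinj x 1 (by rw [e', h0]))
  have hsq' : ∀ x : E, rMul (ix x) (ix x) = 0 := fun x => by
    rw [← hmul, show x * x = 1 from Subtype.ext (by rw [Subgroup.coe_mul, ← pow_two]; exact hsq x x.2), h0]
  have hco : ∀ x y : E, rMul (ix x) (ix y) = rMul (ix y) (ix x) := fun x y => by
    rw [← hmul, ← hmul, hcomm.is_comm.comm x y]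
  have := r_rank
  simp only [List.all_eq_true, List.mem_range, Bool.or_eq_true, Bool.not_eq_true', Nat.beq_eq] at this
  have hbeq : ∀ m n : ℕ, m = n → ¬ Nat.beq m n = false := fun m n e' h' => by simp [e'] at h'
  rcases this (ix a) (hix a) with h1 | h1
  · exact hbeq _ _ (hsq' a) h1
  rcases h1 (ix b) (hix b) with ((((h2 | h2) | h2) | h2) | h2) | h2
  · exact hbeq _ _ (hsq' b) h2
  · exact hbeq _ _ (hco a b) h2
  · exact hne0 a ha h2
  · exact hne0 b hb1 h2
  · exact hb (hinj a b h2).symm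
  rcases h2 (ix c) (hix c) with (((((h3 | h3) | h3) | h3) | h3) | h3) | h3
  · exact hbeq _ _ (hsq' c) h3
  · exact hbeq _ _ (hco a c) h3
  · exact hbeq _ _ (hco b c) h3
  · exact hne0 c hc.1 h3
  · exact hc.2.1 (hinj _ _ h3)
  · exact hc.2.2.1 (hinj _ _ h3)
  · exact hc.2.2.2 (hinj _ _ (h3.trans (hmul a b).symm))

/-- The statement on the centralizer. -/
theorem Setup.centralizer_thm (h : Setup ω) (hJ : Nat.card (J3 F ω) = 50232960) :
    (∀ x y : J3 F ω, orderOf x = 2 → orderOf y = 2 → IsConj x y) ∧ ∃ t : J3 F ω, orderOf t = 2 ∧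
      ∃ (Q : Subgroup ↥(Subgroup.centralizer ({t} : Set (J3 F ω)))) (_ : Q.Normal),
        Cfsg.IsExtraspecial 2 Q ∧ Nat.card Q = 32 ∧
        (∀ E : Subgroup Q, Cfsg.IsElementaryAbelian 2 E → Nat.card E ≤ 2 ^ 2) ∧
        (∃ H : Subgroup ↥(Subgroup.centralizer ({t} : Set (J3 F ω))), Q.IsComplement' H) ∧
        Nonempty (↥(Subgroup.centralizer ({t} : Set (J3 F ω))) ⧸ Q ≃* ↥(alternatingGroup (Fin 5))) := by
  refine ⟨fun x y hx hy => (h.isConj_jz hJ hx).symm.trans (h.isConj_jz hJ hy), h.jz,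
    orderOf_eq_prime (by rw [pow_two, h.jz_sq]) h.jz_ne_one, ?_⟩
  obtain ⟨hC, hcard⟩ := h.sup_eq_centralizer hJ
  obtain ⟨χ, hker0⟩ := h.exists_chi hJ
  revert χ hC
  generalize hCdef : Subgroup.centralizer ({h.jz} : Set (J3 F ω)) = C
  intro hC χ hker0
  obtain ⟨hsurj, hker, -⟩ := hker0
  have hle : h.subR ≤ C := le_sup_left.trans hC.le
  have hleH : h.subH ≤ C := le_sup_right.trans hC.le
  have hk : χ.ker = h.subR.subgroupOf C := by
    ext x; rw [MonoidHom.mem_ker, Subgroup.mem_subgroupOf]; exact hker x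
  let e : h.subR.subgroupOf C ≃* h.subR := Subgroup.subgroupOfEquivOfLe hle
  have hQ32 : Nat.card (h.subR.subgroupOf C) = 32 := (Nat.card_congr e.toEquiv).trans h.card_subR
  refine ⟨h.subR.subgroupOf C, hk ▸ MonoidHom.normal_ker χ, h.isExtraspecial_R e, hQ32,
    fun E hE => h.elementary_le e E hE, ⟨h.subH.subgroupOf C, ?_⟩, ?_⟩
  · refine Subgroup.isComplement'_of_disjoint_and_mul_eq_univ ?_ ?_
    · rw [Subgroup.disjoint_def]
      intro x hx hx'
      exact Subtype.ext (h.inf_eq_one (Subgroup.mem_subgroupOf.1 hx) (Subgroup.mem_subgroupOf.1 hx'))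
    · refine Set.eq_univ_of_forall fun x => ?_
      obtain ⟨r, hr, k, hk', hrk⟩ := h.mem_sup (hC.ge x.2)
      exact ⟨⟨r, hle hr⟩, Subgroup.mem_subgroupOf.2 hr, ⟨k, hleH hk'⟩, Subgroup.mem_subgroupOf.2 hk',
        Subtype.ext hrk⟩
  · haveI : (h.subR.subgroupOf C).Normal := hk ▸ MonoidHom.normal_ker χ
    exact ⟨(QuotientGroup.quotientMulEquivOfEq hk.symm).trans (QuotientGroup.quotientKerEquivOfSurjective χ hsurj)⟩

end Cfsg.Agent.Lib.JankoThree
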